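import Cfsg.Agent.H231.QF.Defs
import Cfsg.Agent.H928.Ore.TwF
import Cfsg.Agent.Nodes.Unique

/-!
# S2491, row F4 = `²E₆(2)`, box E7, part C (helper374)

* `V2_le` : the unipotent radical of `P φ j2` lies in the one of the node `3` of `E₆(F)`;
* `bc_sgY` : base change and the twisted graph automorphism;
* `descent` : an element of `²E₆(2)` which lies after extension of scalars in the product of the two highest root groups
  lies in `X φ ![1,3,4,2] ⊔ X φ ![2,3,4,2]`.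
-/

set_option autoImplicit false
set_option linter.unusedSectionVars false
set_option linter.unusedVariables false

namespace Cfsg.Agent.H374.QF.Desc

open CoxeterSystem Cfsg.Agent.ChevalleyStructure.CoxeterGeom Cfsg.Agent.Tits.Roots Cfsg.Agent.Tits.Core
  Cfsg.Agent.Nodes Cfsg.Agent.Nodes.Reps Cfsg.Agent.Nodes.BNOf Cfsg.Agent.Nodes.RGDLib Cfsg.Agent.Nodes.Bruhat
  Cfsg.Agent.Nodes.OppDec Cfsg.Agent.Nodes.LeviDec Cfsg.Agent.Nodes.StabComb Cfsg.Agent.Nodes.KindChev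
  Cfsg.Agent.Nodes.ChevCls
  Cfsg.Agent.OddHalf.NI.ModelChev
  Cfsg.Agent.H928.Ore.Frame Cfsg.Agent.H928.Ore.Fix Cfsg.Agent.H928.Ore.Block Cfsg.Agent.H928.Ore.TwE
open Cfsg.Lie Cfsg.Agent.ChevalleyStructure Cfsg.Agent.ChevalleyStructure.Elts
  Cfsg.Agent.ChevalleyStructure.NPerm
  Cfsg.Agent.ChevalleyStructure.CoxeterGeomTypes Cfsg.Agent.Nodes.RGDChev Cfsg.Agent.KFacts.RgdChevCoord
open Cfsg.Agent.Nodes.RGDTwGen Cfsg.Agent.Nodes.RGDFold Cfsg.Agent.Nodes.RGDTwE6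
open Cfsg.Agent.ChevalleyStructure.TwistedU Cfsg.Agent.ChevalleyStructure.TwistedFix
open Cfsg.Agent.ChevalleyStructure.TwE6Basic (sg hE6 epsE)

open scoped MatrixGroups commutatorElement

universe u v

/-! ### The unipotent radical -/

theorem tab2 : ∀ r : Fin 72, (∀ k : Fin 4, 0 ≤ V chevE6 J r k) → 0 < V chevE6 J r 1 →
    (∀ k : Fin 6, 0 ≤ vec chevE6 6 r k) ∧ 0 < vec chevE6 6 r 3 := by decide +kernel

theorem V2_le {F : Type u} [Field F] (φ : F →+* F) : H231.QF.V φ H231.QF.j2 ≤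
    (VJ CoxeterMatrix.E₆.toCoxeterSystem RGDTwE6.hp.isCartan (XX chevE6 6 F) {k : Fin 6 | k ≠ 3}).comap (inc F 2) := by
  refine RGD.Sup_le fun z hz => X_le fun r hr hrz => ?_
  obtain ⟨-, h0, k, hk, hk0⟩ := hz
  have hk1 : k = 1 := by
    by_contra h
    exact hk h
  subst hk1
  obtain ⟨h1, h2⟩ := tab2 ⟨r, hr⟩ (fun k => by
    change 0 ≤ V chevE6 J r k
    rw [hrz]; exact h0 k) (by
    change 0 < V chevE6 J r 1
    rw [hrz]; exact hk0)
  exact RGD.le_Sup ⟨isRoot_vec RGDTwE6.hp _ hr, fun k => h1 k, 3, fun h => h rfl, h2⟩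

/-! ### The two highest root groups -/

theorem tabH : V chevE6 J 70 = ![1, 3, 4, 2] ∧ V chevE6 J 71 = ![2, 3, 4, 2] ∧
    (71 ≠ 70 ∧ 71 ≠ chevE6.neg 70 ∧ chevE6.commTerms 70 71 = []) ∧
    (H91.E6Fix.rho 70 = 70 ∧ ∀ h, epsE ⟨70, h⟩ = 1) ∧ (H91.E6Fix.rho 71 = 71 ∧ ∀ h, epsE ⟨71, h⟩ = 1) ∧
    (∀ k, 0 ≤ vec chevE6 6 70 k) ∧ (∀ k, 0 ≤ vec chevE6 6 71 k) ∧ vec chevE6 6 70 ≠ vec chevE6 6 71 := by
  decide +kernel

section

variable {K : Type u} [Field K]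

theorem comm_root {r s : ℕ} (hr : r < 72) (hs : s < 72) (h1 : s ≠ r) (h2 : s ≠ chevE6.neg r)
    (h3 : chevE6.commTerms r s = []) (a b : K) : xc RGDTwE6.hp (vec chevE6 6 r) a * xc RGDTwE6.hp (vec chevE6 6 s) b =
      xc RGDTwE6.hp (vec chevE6 6 s) b * xc RGDTwE6.hp (vec chevE6 6 r) a := by
  have h4 := comm_xG RGDTwE6.hp (K := K) hr hs h1 h2 a b
  have h5 : chevE6.commWord K r s a b = [] := by
    change (chevE6.commTerms r s).map _ = []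
    rw [h3, List.map_nil]
  rw [h5, wordG_nil, commutatorElement_def, inv_inv, inv_inv] at h4
  apply Subtype.ext
  change ((xc RGDTwE6.hp (vec chevE6 6 r) a : ↥(chevE6.group K)) : GL chevE6.Idx K) *
    ((xc RGDTwE6.hp (vec chevE6 6 s) b : ↥(chevE6.group K)) : GL chevE6.Idx K) = _ * _
  rw [coe_xc RGDTwE6.hp hr, coe_xc RGDTwE6.hp hs]
  generalize xG (F := K) RGDTwE6.hp.inList r a = A at h4 ⊢
  generalize xG (F := K) RGDTwE6.hp.inList s b = B at h4 ⊢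
  calc A * B = (B * A) * (A⁻¹ * B⁻¹ * A * B) := by group
    _ = B * A * (B⁻¹ * A⁻¹ * B * A)⁻¹ := by group
    _ = B * A := by rw [h4, inv_one, mul_one]

theorem comm_HL (a b : K) : xc RGDTwE6.hp (vec chevE6 6 70) a * xc RGDTwE6.hp (vec chevE6 6 71) b =
    xc RGDTwE6.hp (vec chevE6 6 71) b * xc RGDTwE6.hp (vec chevE6 6 70) a :=
  comm_root (by decide) (by decide) tabH.2.2.1.1 tabH.2.2.1.2.1 tabH.2.2.1.2.2 a b

theorem mem_Z3 {x : ↥(chevE6.group K)}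
    (hx : x ∈ XX chevE6 6 K (vec chevE6 6 70) ⊔ XX chevE6 6 K (vec chevE6 6 71)) :
    ∃ a b : K, x = xc RGDTwE6.hp (vec chevE6 6 70) a * xc RGDTwE6.hp (vec chevE6 6 71) b := by
  have h1 : XX chevE6 6 K (vec chevE6 6 70) ≤
      Subgroup.normalizer (XX chevE6 6 K (vec chevE6 6 71) : Set ↥(chevE6.group K)) := by
    intro u hu
    obtain ⟨a, rfl⟩ := (mem_XX RGDTwE6.hp (by decide) _).1 hu
    have hc : xc RGDTwE6.hp (vec chevE6 6 70) a ∈
        Subgroup.centralizer (XX chevE6 6 K (vec chevE6 6 71) : Set ↥(chevE6.group K)) := by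
      rw [Subgroup.mem_centralizer_iff]
      intro v hv
      obtain ⟨b, rfl⟩ := (mem_XX RGDTwE6.hp (by decide) _).1 hv
      exact (comm_HL a b).symm
    exact Subgroup.centralizer_le_normalizer _ hc
  have h2 : x ∈ ((XX chevE6 6 K (vec chevE6 6 70) ⊔ XX chevE6 6 K (vec chevE6 6 71) :
    Subgroup ↥(chevE6.group K)) : Set ↥(chevE6.group K)) := hx
  rw [Subgroup.coe_mul_of_left_le_normalizer_right _ _ h1, Set.mem_mul] at h2
  obtain ⟨u, hu, v, hv, rfl⟩ := h2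
  obtain ⟨a, rfl⟩ := (mem_XX RGDTwE6.hp (by decide) _).1 hu
  obtain ⟨b, rfl⟩ := (mem_XX RGDTwE6.hp (by decide) _).1 hv
  exact ⟨a, b, rfl⟩

/-- the two highest root groups are independent -/
theorem uniq [Finite K] {a b a' b' : K}
    (h : xc RGDTwE6.hp (vec chevE6 6 70) a * xc RGDTwE6.hp (vec chevE6 6 71) b =
      xc RGDTwE6.hp (vec chevE6 6 70) a' * xc RGDTwE6.hp (vec chevE6 6 71) b') : a = a' ∧ b = b' := by
  obtain ⟨p, hpc⟩ := CharP.exists K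
  have : Fact p.Prime := ⟨(CharP.char_is_prime_or_zero K p).resolve_right (CharP.char_ne_zero_of_finite K p)⟩
  have hW := finite_W RGDTwE6.hp CoxeterMatrix.E₆.toCoxeterSystem
  have R := rgd (K := K) RGDTwE6.hp CoxeterMatrix.E₆.toCoxeterSystem p
  have h70 : vec chevE6 6 70 ∈ RGD.Pos CoxeterMatrix.E₆.toCoxeterSystem RGDTwE6.hp.isCartan :=
    ⟨isRoot_vec RGDTwE6.hp _ (by decide), tabH.2.2.2.2.2.1⟩
  have h71 : vec chevE6 6 71 ∈ RGD.Pos CoxeterMatrix.E₆.toCoxeterSystem RGDTwE6.hp.isCartan :=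
    ⟨isRoot_vec RGDTwE6.hp _ (by decide), tabH.2.2.2.2.2.2.1⟩
  have hcl : ∀ x ∈ RGD.Pos CoxeterMatrix.E₆.toCoxeterSystem RGDTwE6.hp.isCartan,
      Cfsg.Agent.Nodes.Unique.Closed CoxeterMatrix.E₆.toCoxeterSystem RGDTwE6.hp.isCartan ({x} : Set (Fin 6 → ℤ)) := by
    intro x hx y hy y' hy' z hz
    rw [Set.mem_singleton_iff] at hy hy'
    subst hy
    subst hy'
    exact Cfsg.Agent.Nodes.Unique.btwn_self hx.1 hz
  have h1 := Cfsg.Agent.Nodes.Unique.inf_eq R (Set.singleton_subset_iff.2 h70) (Set.singleton_subset_iff.2 h71)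
    (hcl _ h70) (hcl _ h71)
  have h2 : ({vec chevE6 6 70} : Set (Fin 6 → ℤ)) ∩ {vec chevE6 6 71} = ∅ :=
    Set.singleton_inter_eq_empty.2 fun h => tabH.2.2.2.2.2.2.2 (Set.mem_singleton_iff.1 h)
  rw [h2] at h1
  have h3 : (xc RGDTwE6.hp (vec chevE6 6 70) a')⁻¹ * xc RGDTwE6.hp (vec chevE6 6 70) a =
      xc RGDTwE6.hp (vec chevE6 6 71) b' * (xc RGDTwE6.hp (vec chevE6 6 71) b)⁻¹ := by
    calc _ = (xc RGDTwE6.hp (vec chevE6 6 70) a')⁻¹ * (xc RGDTwE6.hp (vec chevE6 6 70) a *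
        xc RGDTwE6.hp (vec chevE6 6 71) b) * (xc RGDTwE6.hp (vec chevE6 6 71) b)⁻¹ := by group
      _ = _ := by rw [h]; group
  have h4 : (xc RGDTwE6.hp (vec chevE6 6 70) a')⁻¹ * xc RGDTwE6.hp (vec chevE6 6 70) a = 1 := by
    have h5 : (xc RGDTwE6.hp (vec chevE6 6 70) a')⁻¹ * xc RGDTwE6.hp (vec chevE6 6 70) a ∈
        RGD.Sup (XX chevE6 6 K) ({vec chevE6 6 70} : Set (Fin 6 → ℤ)) ⊓
        RGD.Sup (XX chevE6 6 K) ({vec chevE6 6 71} : Set (Fin 6 → ℤ)) := by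
      refine Subgroup.mem_inf.2 ⟨RGD.le_Sup (Set.mem_singleton _) ?_, RGD.le_Sup (Set.mem_singleton _) ?_⟩
      · exact mul_mem (inv_mem ((mem_XX RGDTwE6.hp (by decide) _).2 ⟨_, rfl⟩))
          ((mem_XX RGDTwE6.hp (by decide) _).2 ⟨_, rfl⟩)
      · rw [h3]
        exact mul_mem ((mem_XX RGDTwE6.hp (by decide) _).2 ⟨_, rfl⟩)
          (inv_mem ((mem_XX RGDTwE6.hp (by decide) _).2 ⟨_, rfl⟩))
    rw [h1] at h5
    have h6 : RGD.Sup (XX chevE6 6 K) (∅ : Set (Fin 6 → ℤ)) ≤ ⊥ := RGD.Sup_le fun x hx => absurd hx (Set.notMem_empty x)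
    exact Subgroup.mem_bot.1 (h6 h5)
  have h5 : xc RGDTwE6.hp (vec chevE6 6 70) a = xc RGDTwE6.hp (vec chevE6 6 70) a' := (inv_mul_eq_one.1 h4).symm
  refine ⟨xc_inj RGDTwE6.hp (by decide) h5, xc_inj RGDTwE6.hp (r := 71) (by decide) ?_⟩
  rw [h4] at h3
  exact (mul_inv_eq_one.1 h3.symm).symm

end

/-! ### Base change and the twisted graph automorphism -/

theorem bc_sgY {F : Type u} [Field F] {K : Type v} [Field K] {φ : F →+* F} {φ' : K →+* K} {ι : F →+* K}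
    (h : ∀ t, φ' (ι t) = ι (φ t)) (y : ↥(chevE6.group F)) :
    sgY φ' (bc chevE6 ι y) = bc chevE6 ι (sgY φ y) := by
  have h1 : chevE6.group F ≤ (((sgY φ').comp (bc chevE6 ι)).eqLocus ((bc chevE6 ι).comp (sgY φ))).map
      (chevE6.group F).subtype := by
    refine (group_le_iff RGDTwE6.hp.inList _).2 fun r hr t => ?_
    refine ⟨xc RGDTwE6.hp (vec chevE6 6 r) t, ?_, coe_xc RGDTwE6.hp hr t⟩
    change sgY φ' (bc chevE6 ι _) = bc chevE6 ι (sgY φ _)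
    rw [bc_xc RGDTwE6.hp ι hr, sgY_xc φ' hr, sgY_xc φ hr, bc_xc RGDTwE6.hp ι (H91.E6Fix.rho_lt r hr), map_mul,
      map_intCast, h]
  obtain ⟨y', hy', e⟩ := h1 y.2
  have e2 : y' = y := Subtype.ext e
  subst e2
  exact hy'

section

variable {F : Type u} [Field F] [Fintype F] {φ : F →+* F} (hφ : ∀ t, φ t = t ^ 2) (hqq : ∀ t : F, (t ^ 2) ^ 2 = t)

include hφ hqq in
theorem exists_X {r : ℕ} (hr : r < 72) (h1 : H91.E6Fix.rho r = r) (h2 : ∀ h, epsE ⟨r, h⟩ = 1) {c : F}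
    (hc : φ c = c) : ∃ x ∈ H231.QF.X φ (V chevE6 J r), inc F 2 x = xc RGDTwE6.hp (vec chevE6 6 r) c := by
  have h3 : sgY φ (xc RGDTwE6.hp (vec chevE6 6 r) c) = xc RGDTwE6.hp (vec chevE6 6 r) c := by
    rw [sgY_xc φ hr, h1, h2, Int.cast_one, one_mul, hc]
  obtain ⟨g, hg⟩ := exists_inc hφ hqq h3
  refine ⟨g, ?_, hg⟩
  have h4 := congrArg Subtype.val hg
  rw [coe_xc RGDTwE6.hp hr] at h4
  refine Subgroup.mem_subgroupOf.2 ⟨?_, TwE6Basic.twisted_le_fix φ hφ hqq g.2⟩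
  have h5 : ((g : ↥(twistedE6 F 2)) : GL chevE6.Idx F) = xG RGDTwE6.hp.inList r c := h4
  rw [h5]
  exact mem_rspan (xG (F := F) RGDTwE6.hp.inList) (S := {k | k < chevE6.nroots ∧ V chevE6 J k = V chevE6 J r})
    ⟨hr, rfl⟩ _

end

/-- **Descent.** -/
theorem descent {F : Type u} [Field F] [Fintype F] (hF : Fintype.card F = 4) {φ : F →+* F} (hφ : ∀ t, φ t = t ^ 2)
    {K : Type v} [Field K] [Finite K] (ι : F →+* K) {z : H231.QF.KK F}
    (hz : bc chevE6 ι (inc F 2 z) ∈ XX chevE6 6 K (vec chevE6 6 70) ⊔ XX chevE6 6 K (vec chevE6 6 71)) :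
    z ∈ H231.QF.X φ ![1, 3, 4, 2] ⊔ H231.QF.X φ ![2, 3, 4, 2] := by
  have hqq : ∀ t : F, (t ^ 2) ^ 2 = t := fun t => by
    rw [← pow_mul]
    have := FiniteField.pow_card t
    rwa [hF] at this
  have h2F : CharP F 2 := by
    have : Fact (Nat.Prime 2) := ⟨Nat.prime_two⟩
    exact charP_of_card_eq_prime_pow (f := 2) (by rw [hF]; norm_num)
  have h2K : CharP K 2 := charP_of_injective_ringHom ι.injective 2
  have : Fact (Nat.Prime 2) := ⟨Nat.prime_two⟩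
  have hι : ∀ t, frobenius K 2 (ι t) = ι (φ t) := fun t => by rw [frobenius_def, hφ, map_pow]
  obtain ⟨α, β, hab⟩ := mem_Z3 hz
  have h3 := bc_sgY hι (inc F 2 z)
  rw [sgY_inc hφ hqq z, hab, map_mul, sgY_xc (frobenius K 2) (r := 70) (by decide),
    sgY_xc (frobenius K 2) (r := 71) (by decide), tabH.2.2.2.1.1, tabH.2.2.2.1.2, tabH.2.2.2.2.1.1, tabH.2.2.2.2.1.2,
    Int.cast_one, one_mul, one_mul] at h3
  obtain ⟨hα, hβ⟩ := uniq h3
  rw [frobenius_def] at hα hβ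
  have key : ∀ c : K, c ^ 2 = c → ∃ d : F, φ d = d ∧ ι d = c := by
    intro c hc
    have h5 : c * (c - 1) = 0 := by ring_nf; rw [hc]; ring
    rcases mul_eq_zero.1 h5 with h | h
    · exact ⟨0, map_zero φ, by rw [map_zero, h]⟩
    · exact ⟨1, map_one φ, by rw [map_one]; exact (sub_eq_zero.1 h).symm⟩
  obtain ⟨a, ha, rfl⟩ := key α hα
  obtain ⟨b, hb, rfl⟩ := key β hβ
  rw [← bc_xc RGDTwE6.hp ι (r := 70) (by decide), ← bc_xc RGDTwE6.hp ι (r := 71) (by decide), ← map_mul] at hab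
  have h6 := bc_injective chevE6 ι hab
  obtain ⟨x, hx, ex⟩ := exists_X hφ hqq (r := 70) (by decide) tabH.2.2.2.1.1 tabH.2.2.2.1.2 ha
  obtain ⟨y, hy, ey⟩ := exists_X hφ hqq (r := 71) (by decide) tabH.2.2.2.2.1.1 tabH.2.2.2.2.1.2 hb
  rw [tabH.1] at hx
  rw [tabH.2.1] at hy
  have h7 : z = x * y := by
    apply inc_injective 2
    rw [h6, map_mul, ex, ey]
  rw [h7]
  exact mul_mem ((le_sup_left : H231.QF.X φ ![1, 3, 4, 2] ≤ _) hx) ((le_sup_right : H231.QF.X φ ![2, 3, 4, 2] ≤ _) hy)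

end Cfsg.Agent.H374.QF.Desc
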