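import Cfsg.Agent.H374.QF.Irr
import Cfsg.Agent.H326.QF.OutV1
import Cfsg.Agent.H590.F4.P4

/-!
# S2491, row F4 = `²E₆(2)`, box P4: `layer'` (parts of KV) and `irr` (helper374)
-/

set_option autoImplicit false

namespace Cfsg.Agent.H374.QF

open CoxeterSystem Cfsg.Agent.ChevalleyStructure.CoxeterGeom Cfsg.Agent.Tits.Roots Cfsg.Agent.Tits.Core
  Cfsg.Agent.Nodes Cfsg.Agent.Nodes.Reps Cfsg.Agent.Nodes.BNOf Cfsg.Agent.Nodes.RGDLib Cfsg.Agent.Nodes.Bruhat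
  Cfsg.Agent.Nodes.OppDec Cfsg.Agent.Nodes.LeviDec Cfsg.Agent.Nodes.StabComb
open Cfsg.Lie Subgroup
open Cfsg.Agent.H231.QF Cfsg.Agent.H590.F4

universe u

variable {F : Type u} [Field F] [Fintype F] (hF : Fintype.card F = 4) {φ : F →+* F} (hφ : ∀ t, φ t = t ^ 2)

include hF hφ

/-- `V2` is normal in `P₄`, contained in `V₄`, and `V₄/V2` is abelian -/
theorem layer' : V2 φ ≤ V φ j4 ∧ (∀ g ∈ P φ j4, ∀ d ∈ V2 φ, g * d * g⁻¹ ∈ V2 φ) ∧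
    (∀ a ∈ V φ j4, ∀ b ∈ V φ j4, a * b * a⁻¹ * b⁻¹ ∈ V2 φ) := by
  have := Cfsg.Agent.H326.QF.charP_two hF
  have : Fact (Nat.Prime 2) := ⟨Nat.prime_two⟩
  have hqq := Cfsg.Agent.H326.QF.frob_frob hF
  exact ⟨Irr.V2_le (RGDTwE6.rgd cs hφ hqq 2), Irr.V2_norm (RGDTwE6.rgd cs hφ hqq 2)
    (fun a ha hl => Cfsg.Agent.KFacts.TwESix.Grp.lr_long cs hφ hqq 2 ha hl), Irr.V_comm (RGDTwE6.rgd cs hφ hqq 2)
    (fun a ha hl => Cfsg.Agent.KFacts.TwESix.Grp.lr_long cs hφ hqq 2 ha hl)⟩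

/-- **IRR** : `V₄/V2 = 2^16` is irreducible. -/
theorem irr (M : Subgroup (KK F)) (h1 : V2 φ ≤ M) (h2 : M ≤ V φ j4) (h3 : ∀ g ∈ P φ j4, ∀ m ∈ M, g * m * g⁻¹ ∈ M) :
    M = V2 φ ∨ M = V φ j4 := by
  have := Cfsg.Agent.H326.QF.charP_two hF
  have : Fact (Nat.Prime 2) := ⟨Nat.prime_two⟩
  have hqq := Cfsg.Agent.H326.QF.frob_frob hF
  exact Irr.irr (RGDTwE6.rgd cs hφ hqq 2)
    (fun a ha hl => Cfsg.Agent.KFacts.TwESix.Grp.lr_long cs hφ hqq 2 ha hl) M h1 h2 h3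

end Cfsg.Agent.H374.QF
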