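import Cfsg.Agent.H231.QS.TwCen
import Cfsg.Agent.H231.QF.Defs
import Cfsg.Agent.H326.QF.OutV1

/-!
# S2491, row F4 = `²E₆(2)`: the 3-part of the kernel lies in `⁅L̃₁, L̃₁⁆` (Z3LEV, helper374)
-/

set_option autoImplicit false
set_option linter.unusedSectionVars false

namespace Cfsg.Agent.H374.QF.ZThree

open CoxeterSystem Cfsg.Agent.ChevalleyStructure.CoxeterGeom Cfsg.Agent.Tits.Roots Cfsg.Agent.Tits.Core
  Cfsg.Agent.Nodes Cfsg.Agent.Nodes.Reps Cfsg.Agent.Nodes.BNOf Cfsg.Agent.Nodes.RGDLib Cfsg.Agent.Nodes.Bruhat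
  Cfsg.Agent.Nodes.OppDec Cfsg.Agent.Nodes.LeviDec Cfsg.Agent.Nodes.StabComb
  Cfsg.Agent.Nodes.RGDLift
  Cfsg.Agent.H928.Ore.TwE Cfsg.Agent.H928.Ore.TwS
open Cfsg.Lie
open Cfsg.Agent.Nodes.RGDFoldSL (Fx mem_Fx)
open Cfsg.Agent.Nodes.RGDTwNode.E6 (rest)
open Cfsg.Agent.OddHalf.NI.Mult (dg nn up lo dgHom Coord)
open Cfsg.Agent.H231.QS.Lift Cfsg.Agent.H231.QS.TwCen
open Cfsg.Agent.H51.Mult (PCE)
open Cfsg.Agent.H231.QF
open scoped MatrixGroups

universe u v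

theorem sr_mem_RootsJ {i : Fin 4} (hi : i ≠ 0) : sr i ∈ RootsJ cs RGDTwE6.isCartan j1 := by
  refine ⟨isRoot_sr cs RGDTwE6.isCartan i, fun k hk => ?_⟩
  have hk : k = 0 := by
    by_contra h
    exact hk h
  subst hk
  simp [sr, hi.symm]

theorem neg_sr_mem_RootsJ {i : Fin 4} (hi : i ≠ 0) : -sr i ∈ RootsJ cs RGDTwE6.isCartan j1 := by
  refine ⟨(isRoot_sr cs RGDTwE6.isCartan i).neg, fun k hk => ?_⟩
  have h := (sr_mem_RootsJ hi).2 k hk
  rw [Pi.neg_apply, h, neg_zero]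

/-- **The kernel (order dividing 3): commutators of elements over the Levi subgroup of `P₁`.** -/
theorem central {K : Type u} [Field K] [Fintype K] (hK : Fintype.card K = 4) {φ : K →+* K} (hφ : ∀ t, φ t = t ^ 2)
    {E : Type*} [Group E] [Finite E] {π : E →* ↥(twistedE6 K 2)} (hsur : Function.Surjective π)
    (hc : π.ker ≤ Subgroup.center E) (h3 : Nat.card π.ker ∣ 3) (hE : commutator E = ⊤) {x : E} (hx : x ∈ π.ker) :
    ∃ a b : E, π a ∈ Lv φ j1 ∧ π b ∈ Lv φ j1 ∧ x = a * b * a⁻¹ * b⁻¹ := by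
  have hqq := Cfsg.Agent.H326.QF.frob_frob hK
  obtain ⟨p, hpc⟩ := CharP.exists K
  have : Fact p.Prime := ⟨(CharP.char_is_prime_or_zero K p).resolve_right (CharP.char_ne_zero_of_finite K p)⟩
  have : Fact (Nat.Prime 3) := ⟨Nat.prime_three⟩
  have h0 : (p : K) = 0 := CharP.cast_eq_zero K p
  have hp3 : p ≠ 3 := by
    rintro rfl
    have h1 : 3 ∣ Fintype.card K := by
      rw [← CharP.cast_eq_zero_iff K 3]
      exact Nat.cast_card_eq_zero K
    rw [hK] at h1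
    omega
  have h3' : IsPGroup 3 π.ker := by
    rcases (Nat.dvd_prime Nat.prime_three).1 h3 with h4 | h4
    · exact IsPGroup.of_card (n := 0) (by rw [h4, pow_zero])
    · exact IsPGroup.of_card (n := 1) (by rw [h4, pow_one])
  have hfin : Finite (GL chevE6.Idx K) := by
    have : Finite (Matrix chevE6.Idx chevE6.Idx K) := inferInstance
    infer_instance
  have : Finite ↥(twistedE6 K 2) := inferInstance
  have R := RGDTwE6.rgd CoxeterMatrix.F₄.toCoxeterSystem hφ hqq p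
  have : Finite CoxeterMatrix.F₄.Group := Cfsg.Agent.Nodes.RGDFold.finite_W (hp := RGDTwE6.hp)
    CoxeterMatrix.F₄.toCoxeterSystem RGDTwE6.isCartan RGDTwE6.foldData
  have hker : (Nat.card π.ker).Coprime p := by
    obtain ⟨k, hk⟩ := IsPGroup.iff_card.1 h3'
    rw [hk]
    exact Nat.Coprime.pow_left k ((Nat.coprime_primes Fact.out Fact.out).2 (Ne.symm hp3))
  have hn : ∃ n' : Fin 4 → E, ∀ i, π (n' i) = RGDTwE6.nn hφ i := by
    choose n' hn' using fun i => hsur (RGDTwE6.nn hφ i)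
    exact ⟨n', hn'⟩
  obtain ⟨n', hn'⟩ := hn
  have R' := rgd_lift hc hker hsur R hn'
  have hG := RGDTwE6.G1_eq_top CoxeterMatrix.F₄.toCoxeterSystem hφ hqq
  have hG' := Cfsg.Agent.OddHalf.NI.Mult.G1_lift R hG hsur hc hker hE
  have C := Cfsg.Agent.H958.TS.TwCommon.coordP hφ hqq
  have hch : ∀ i : Fin 4, ((p : ℕ) : Fx φ ((rest i).length + 1)) = 0 := fun i =>
    Subtype.ext (by
      rw [Subring.coe_natCast, ZeroMemClass.coe_zero]
      exact h0)
  have hlift : ∀ i, ∃ s' : Matrix.SpecialLinearGroup (Fin 2) (Fx φ ((rest i).length + 1))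
      →* E, π.comp s' = Cfsg.Agent.H958.TS.TwCommon.P hφ hqq i := fun i =>
    Cfsg.Agent.H231.QS.Lift.exists_lift (p := p) (r := 3) hp3 hsur hc h3' _ (closure_pow (hch i))
      (fun P => cyc_two (hch i) hp3 P)
  choose t ht using hlift
  have ht' : ∀ i A, π (t i A) = Cfsg.Agent.H958.TS.TwCommon.P hφ hqq i A := fun i A => DFunLike.congr_fun (ht i) A
  have C' := Cfsg.Agent.OddHalf.NI.Mult.coord_lift R C hc hker ht
  have hT := Cfsg.Agent.OddHalf.NI.Mult.torus R' C' hG'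
  -- membership in the Levi subgroup
  have hTL : RGDTwE6.T K 2 ≤ Lv φ j1 := T_le_LJ
  have hPL : ∀ i : Fin 4, i ≠ 0 → ∀ A, Cfsg.Agent.H958.TS.TwCommon.P hφ hqq i A ∈ Lv φ j1 := by
    intro i hi A
    have h5 := C.range_le_KK i ⟨A, rfl⟩
    refine (?_ : (X φ (sr i) ⊔ X φ (-sr i) : Subgroup ↥(twistedE6 K 2)) ≤ Lv φ j1) h5
    refine sup_le (X_le_LJ ?_) (X_le_LJ ?_)
    · exact sr_mem_RootsJ hi
    · exact neg_sr_mem_RootsJ hi
  by_cases hcom : ∀ i j, i ≠ j → ∀ a b, Commute (t i (dg a)) (t j (dg b))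
  · have hcomm : Pairwise fun i j => ∀ (a : (Fx φ ((rest i).length + 1))ˣ) (b : (Fx φ ((rest j).length + 1))ˣ),
        Commute (((t i).comp dgHom) a) (((t j).comp dgHom) b) := fun i j hij a b => hcom i j hij a b
    have hx1 : x ∈ (MonoidHom.noncommPiCoprod (fun i => (t i).comp dgHom) hcomm).range := by
      rw [MonoidHom.noncommPiCoprod_range, ← hT, Subgroup.mem_comap]
      rw [MonoidHom.mem_ker] at hx
      rw [hx]
      exact one_mem _
    obtain ⟨u, hu⟩ := hx1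
    have hsingle : ∀ i (a : (Fx φ ((rest i).length + 1))ˣ), MonoidHom.noncommPiCoprod (fun i => (t i).comp dgHom) hcomm
        (Pi.mulSingle i a) = t i (dg a) := by
      intro i a
      rw [MonoidHom.noncommPiCoprod_mulSingle]
      rfl
    have hu1 : u = Pi.mulSingle 0 (u 0) * Pi.mulSingle 1 (u 1) * Pi.mulSingle 2 (u 2) * Pi.mulSingle 3 (u 3) := by
      rw [← Fin.prod_univ_four (fun i => Pi.mulSingle i (u i)), Finset.univ_prod_mulSingle]
    rw [hu1, map_mul, map_mul, map_mul, hsingle, hsingle, hsingle, hsingle] at hu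
    have hx2 : π x = 1 := hx
    rw [← hu, map_mul, map_mul, map_mul, ht', ht', ht', ht'] at hx2
    obtain ⟨e0, e1, e2⟩ := ker_tor hφ hqq (t0 := u 0) (t1 := u 1) (t2 := u 2) (t3 := u 3) hx2
    have hcard : 4 ≤ Nat.card (Fx φ 2) := by
      have h5 : (Fx φ 2) = ⊤ := by
        rw [eq_top_iff]
        intro y _
        rw [mem_Fx]
        change φ (φ y) = y
        rw [hφ, hφ, hqq]
      have h6 : Nat.card (Fx φ 2) = Nat.card K := by
        rw [h5]
        exact Nat.card_congr Subfield.topEquiv.toEquiv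
      rw [h6, Nat.card_eq_fintype_card, hK]
    have hperf : commutator SL(2, Fx φ 2) = ⊤ := perf2 hcard
    obtain ⟨s2, hs2⟩ : ∃ s2 : SL(2, Fx φ 2) →* E, s2 = t 2 := ⟨_, rfl⟩
    obtain ⟨s3, hs3⟩ : ∃ s3 : SL(2, Fx φ 2) →* E, s3 = t 3 := ⟨_, rfl⟩
    have hq2 : ∀ A, π (s2 A) = Q2 hφ hqq A := by
      rw [hs2]
      exact fun A => ht' 2 A
    have hq3 : ∀ A, π (s3 A) = Q3 hφ hqq A := by
      rw [hs3]
      exact fun A => ht' 3 A
    obtain ⟨v, hv⟩ : ∃ v : (Fx φ 2)ˣ, v = u 3 := ⟨_, rfl⟩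
    have h32 : ∀ A, s3 (dg v) * s2 A * (s3 (dg v))⁻¹ = s2 (cj2 v⁻¹ A) := by
      have h5 : (MulAut.conj (s3 (dg v))).toMonoidHom.comp s2 = s2.comp (cj2 v⁻¹) := by
        refine hom_eq hperf hc fun A => ?_
        change π (s3 (dg v) * s2 A * (s3 (dg v))⁻¹) = π (s2 (cj2 v⁻¹ A))
        rw [map_mul, map_mul, map_inv, hq3, hq2, hq2]
        exact rel32 hφ hqq v A
      exact fun A => DFunLike.congr_fun h5 A
    have h23' : ∀ A, s2 (dg v) * s3 A * (s2 (dg v))⁻¹ = s3 (cj2 v⁻¹ A) := by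
      have h5 : (MulAut.conj (s2 (dg v))).toMonoidHom.comp s3 = s3.comp (cj2 v⁻¹) := by
        refine hom_eq hperf hc fun A => ?_
        change π (s2 (dg v) * s3 A * (s2 (dg v))⁻¹) = π (s3 (cj2 v⁻¹ A))
        rw [map_mul, map_mul, map_inv, hq2, hq3, hq3]
        exact rel23 hφ hqq v A
      exact fun A => DFunLike.congr_fun h5 A
    have hc23 : s2 (dg v) * s3 (dg v) = s3 (dg v) * s2 (dg v) := by
      rw [hs2, hs3]
      exact hcom 2 3 (by decide) v v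
    have h6 := scal v h32 h23' hc23
    have h9 : x = s3 (dg v) * (s2 (dg v))⁻¹ := by
      rw [← hu]
      have k0 : t 0 (dg (u 0)) = 1 := by
        have : u 0 = 1 := e0
        rw [this, Cfsg.Agent.OddHalf.NI.Mult.dg_one, map_one]
      have k1 : t 1 (dg (u 1)) = 1 := by
        have : u 1 = 1 := e1
        rw [this, Cfsg.Agent.OddHalf.NI.Mult.dg_one, map_one]
      have k2 : t 2 (dg (u 2)) = (s2 (dg v))⁻¹ := by
        have h7 : (u 2 : (Fx φ 2)ˣ) = v⁻¹ := by rw [hv]; exact e2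
        have h8 : s2 (dg (u 2 : (Fx φ 2)ˣ)) = (s2 (dg v))⁻¹ := by
          rw [h7, ← map_inv, ← Cfsg.Agent.OddHalf.NI.Mult.dg_inv]
        rw [← h8, hs2]
        rfl
      have k3 : t 3 (dg (u 3)) = s3 (dg v) := by
        rw [hs3, hv]
        rfl
      rw [k0, k1, k2, k3, one_mul, one_mul]
      have h8 : Commute (s2 (dg v)) (s3 (dg v)) := hc23
      exact h8.inv_left.eq
    refine ⟨_, _, ?_, ?_, h9.trans h6⟩
    · rw [map_mul, hq2, hq3]
      exact mul_mem (hPL 2 (by decide) _) (hPL 3 (by decide) _)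
    · rw [hq2]
      exact hPL 2 (by decide) _
  · push Not at hcom
    obtain ⟨i, j, hij, a, b, hab⟩ := hcom
    obtain ⟨ζ, hζ⟩ : ∃ ζ, t i (dg a) * t j (dg b) * (t i (dg a))⁻¹ * (t j (dg b))⁻¹ = ζ := ⟨_, rfl⟩
    have hζ1 : π ζ = 1 := by
      have h5 := Cfsg.Agent.H958.TS.TwCommon.T_comm (π (t i (dg a)))
        (Cfsg.Agent.OddHalf.NI.Mult.dg_mem_T R' C' i a) (π (t j (dg b)))
        (Cfsg.Agent.OddHalf.NI.Mult.dg_mem_T R' C' j b)
      rw [← hζ, map_mul, map_mul, map_mul, map_inv, map_inv, h5]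
      group
    have hζ2 : ζ ≠ 1 := by
      intro h5
      apply hab
      rw [h5] at hζ
      have h6 := mul_inv_eq_one.1 hζ
      exact mul_inv_eq_iff_eq_mul.1 h6
    have h5 : Nat.card π.ker = 3 := by
      rcases (Nat.dvd_prime Nat.prime_three).1 h3 with h4 | h4
      · exfalso
        have h6 := Subgroup.card_eq_one.1 h4
        have h7 : ζ ∈ π.ker := hζ1
        rw [h6, Subgroup.mem_bot] at h7
        exact hζ2 h7
      · exact h4
    have h6 : (⟨x, hx⟩ : π.ker) ∈ Subgroup.zpowers (⟨ζ, hζ1⟩ : π.ker) :=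
      mem_zpowers_of_prime_card h5 (fun h => hζ2 (congrArg Subtype.val h))
    obtain ⟨n, hn⟩ := h6
    have h7 : ζ ^ n = x := congrArg Subtype.val hn
    refine ⟨t i (dg a) ^ n, t j (dg b), ?_, ?_, by rw [← h7]; exact zpow_comm hζ (hc hζ1) n⟩
    · rw [map_zpow]
      exact zpow_mem (hTL (Cfsg.Agent.OddHalf.NI.Mult.dg_mem_T R' C' i a)) n
    · exact hTL (Cfsg.Agent.OddHalf.NI.Mult.dg_mem_T R' C' j b)


/-- **Z3LEV** -/
theorem z3lev {F : Type u} [Field F] [Fintype F] (hF : Fintype.card F = 4) {φ : F →+* F} (hφ : ∀ t, φ t = t ^ 2)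
    {L : Type v} [Group L] [Finite L] {π : L →* KK F} (hπ : PCE π) (hk : Nat.card π.ker = 12) (z : L) (hz : π z = 1)
    (hz3 : z ^ 3 = 1) : z ∈ ⁅(Lv φ j1).comap π, (Lv φ j1).comap π⁆ := by
  have h2 : Fact (Nat.Prime 2) := ⟨Nat.prime_two⟩
  obtain ⟨N₀, hN₀⟩ := Sylow.exists_subgroup_card_pow_prime (G := π.ker) 2 (n := 2) (by rw [hk]; norm_num)
  let N₁ : Subgroup L := N₀.map π.ker.subtype
  have hN₁ : N₁ ≤ π.ker := by
    rintro _ ⟨z, -, rfl⟩
    exact z.2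
  have hcN₁ : Nat.card N₁ = 4 := by
    have e := Nat.card_congr (N₀.equivMapOfInjective π.ker.subtype (Subgroup.subtype_injective _)).toEquiv
    rw [← e, hN₀]
    norm_num
  obtain ⟨L', _, q, ρ, hq, hqk, hρ, hρc⟩ := hπ.quot hN₁
  have hfin : Finite L' := Finite.of_surjective q hq
  have hk' : Nat.card ρ.ker = 3 := by
    have e := Cfsg.Agent.H51.Mult.card_ker_of_quot hq hρ
    rw [hk, hqk, hcN₁] at e
    omega
  have hz' : q z ∈ ρ.ker := by
    rw [MonoidHom.mem_ker, hρ, hz]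
  obtain ⟨a', b', ha', hb', e⟩ := central hF hφ hρc.surj hρc.cen (by rw [hk']) hρc.perf hz'
  obtain ⟨a, rfl⟩ := hq a'
  obtain ⟨b, rfl⟩ := hq b'
  rw [hρ] at ha' hb'
  obtain ⟨c, hc⟩ : ∃ c, c = a * b * a⁻¹ * b⁻¹ := ⟨_, rfl⟩
  have hcm : c ∈ ⁅(Lv φ j1).comap π, (Lv φ j1).comap π⁆ := by
    rw [hc]
    exact Subgroup.commutator_mem_commutator ha' hb'
  have hn : c⁻¹ * z ∈ N₁ := by
    rw [← hqk, MonoidHom.mem_ker, map_mul, map_inv, e, hc]
    simp only [map_mul, map_inv]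
    group
  have hn4 : (c⁻¹ * z) ^ 4 = 1 := by
    have h1 := pow_card_eq_one' (x := (⟨c⁻¹ * z, hn⟩ : N₁))
    rw [hcN₁] at h1
    exact congrArg Subtype.val h1
  have hzc : Commute z c := by
    have := hπ.comm (z := z) hz c
    exact this
  have e1 : z = c ^ 4 := by
    have h1 : (c⁻¹ * z) ^ 4 = (c⁻¹) ^ 4 * z ^ 4 := (hzc.symm.inv_left).mul_pow 4
    rw [h1] at hn4
    have h3 : z ^ 4 = z := by rw [pow_succ, hz3, one_mul]
    rw [h3, inv_pow, inv_mul_eq_one] at hn4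
    exact hn4.symm
  rw [e1]
  exact pow_mem hcm 4

end Cfsg.Agent.H374.QF.ZThree
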